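import Cfsg.Agent.H593.CC.ThThreeA
import Cfsg.Agent.H478.Th3C
import Cfsg.Agent.H341.CC.Rc

/-!
# S3828, the row of the Thompson group at `p = 3` (helper593)
-/

set_option autoImplicit false

namespace Cfsg.Agent.H593.CCTh

open Cfsg Subgroup Cfsg.Agent.H162.CCR Cfsg.Agent.H777.Th3 Cfsg.Agent.H777.Th3.Dat Cfsg.Agent.H478.ThThree
open Cfsg.Agent.H478.RadTh (fin card_Th center_Th simple radFree_invol)
open Cfsg.Agent.H459.Rad Cfsg.Agent.H839.Rad

theorem not_comm_Th : ¬ IsMulCommutative Spor.Th := by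
  intro h
  have h1 : center Spor.Th = ⊤ := by
    rw [eq_top_iff]
    intro x _
    rw [mem_center_iff]
    intro y
    exact h.is_comm.comm y x
  rw [center_Th] at h1
  have h2 : Nat.card (⊥ : Subgroup Spor.Th) = Nat.card (⊤ : Subgroup Spor.Th) := by rw [h1]
  rw [Subgroup.card_bot, Subgroup.card_top, card_Th] at h2
  norm_num at h2

/-- the Sylow 3-subgroup -/
theorem exists_sylow : ∃ P : Sylow 3 Spor.Th, (P : Subgroup Spor.Th) = thDat.Sg := by
  have := fin
  have h3 : Fact (Nat.Prime 3) := ⟨Nat.prime_three⟩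
  obtain ⟨P, hP⟩ := (isPGroup_Sg th_u1_ne).exists_le_sylow
  refine ⟨P, (Subgroup.eq_of_le_of_card_ge hP ?_).symm⟩
  rw [card_Sg th_u1_ne, Sylow.card_eq_multiplicity, card_Th]
  have h4 : (90745943887872000 : ℕ).factorization 3 = 10 := by
    have e : (90745943887872000 : ℕ) = 3 ^ 10 * 1536790528000 := by norm_num
    rw [e, Nat.factorization_mul (by norm_num) (by norm_num), Finsupp.add_apply, Nat.factorization_pow,
      Finsupp.smul_apply, Nat.prime_three.factorization_self,
      Nat.factorization_eq_zero_of_not_dvd (by norm_num)]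
    rfl
  rw [h4]

/-- **Th, p = 3.** -/
theorem three : CRow 3 Spor.Th := by
  have := fin
  have := simple
  have h3 : Fact (Nat.Prime 3) := ⟨Nat.prime_three⟩
  intro C hC c hc
  by_contra hc1
  have hO : pCore 3 Spor.Th = ⊥ := pCore_eq_bot_of_simple not_comm_Th 3
  obtain ⟨P, hP⟩ := exists_sylow
  obtain ⟨d, hd, hd1, hdP⟩ := hC.exists_mem_sylow hc hc1 P
  obtain ⟨e, he, he1, heP, hcomm⟩ := hC.exists_central hd hd1 hdP
  have heS : e ∈ thDat.Sg := by rw [← hP]; exact heP
  have heU : e ∈ thDat.U := by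
    refine mem_U_of_comm th_u1_ne heS (fun s hs => ?_)
    refine hcomm _ (hC.conj_mem' s he) ?_
    rw [hP]
    exact thDat.Sg.mul_mem (thDat.Sg.mul_mem (thDat.Sg.inv_mem hs) heS) hs
  obtain ⟨v, rfl⟩ := (thDat.mem_U).1 heU
  have ho : orderOf (thDat.uu v) = 3 := orderOf_eq_prime (thDat.uu_cube v) he1
  obtain ⟨t, ht, hxt⟩ := exists_invol ho
  refine false_of_comm ho (Cfsg.Agent.H341.CC.rc_of_min hC he) ?_ hxt
    (radFree_invol Nat.prime_three (by norm_num) ht)
  rw [center_Th, Subgroup.mem_bot]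
  intro h
  rw [h, orderOf_one] at ht
  exact absurd ht (by norm_num)

end Cfsg.Agent.H593.CCTh
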