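import Cfsg.Agent.H777.Th3.SylF

/-!
# Elements of a Sylow 3-subgroup of the Thompson group commuting with their conjugates (helper593, for S3828)
-/

set_option autoImplicit false
set_option linter.unusedSimpArgs false
set_option linter.unusedVariables false
set_option synthInstance.maxHeartbeats 400000
set_option synthInstance.maxSize 2000

namespace Cfsg.Agent.H593.CCTh

open Cfsg.Agent.H777.Th3 Cfsg.Agent.H777.Th3.Dat

abbrev F3 := ZMod 3 × ZMod 3 × ZMod 3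

variable {G : Type*} [Group G] {D : Dat G}

/-- `[x, y]` lies in `U` and its last three coordinates are `m` -/
def Com (D : Dat G) (x y : G) (m : F3) : Prop := ∃ e : V5, e.2.2 = m ∧ x * y = y * x * D.uu e

theorem Com.mul {x x' y : G} {m m' : F3} (h : Com D x y m) (h' : Com D x' y m') (hx' : x' ∈ D.Tg) :
    Com D (x * x') y (m + m') := by
  obtain ⟨e, he, hh⟩ := h
  obtain ⟨e', he', hh'⟩ := h'
  obtain ⟨a, b, c, d, ha⟩ := act_of_mem_Tg hx'
  refine ⟨T a b c d e + e', ?_, ?_⟩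
  · rw [← he, ← he']
    rfl
  · rw [uu_add, ← ha e]
    calc x * x' * y = x * (x' * y) := by group
      _ = (x * y) * x' * D.uu e' := by rw [hh']; group
      _ = y * x * D.uu e * x' * D.uu e' := by rw [hh]
      _ = y * (x * x') * (x'⁻¹ * D.uu e * x' * D.uu e') := by group

theorem Com.of_uu (e : V5) {y : G} (hy : y ∈ D.Tg) : Com D (D.uu e) y 0 := by
  obtain ⟨a, b, c, d, ha⟩ := act_of_mem_Tg hy
  refine ⟨-e + T a b c d e, ?_, ?_⟩
  · show -e.2.2 + e.2.2 = 0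
    exact neg_add_cancel _
  · rw [uu_add, ← ha e, uu_neg]
    group

theorem Com.one (y : G) : Com D 1 y 0 := ⟨0, rfl, by rw [uu_zero]; group⟩

theorem Com.pow {x y : G} {m : F3} (h : Com D x y m) (hx : x ∈ D.Tg) (n : ℕ) : Com D (x ^ n) y (n • m) := by
  induction n with
  | zero => rw [pow_zero, zero_smul]; exact Com.one y
  | succ n ih => rw [pow_succ, succ_nsmul]; exact ih.mul h hx

theorem Com.symm {x y : G} {m : F3} (h : Com D x y m) : Com D y x (-m) := by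
  obtain ⟨e, he, hh⟩ := h
  exact ⟨-e, by rw [← he]; rfl, by rw [uu_neg, hh]; group⟩

theorem Com.self (x : G) : Com D x x 0 := ⟨0, rfl, by rw [uu_zero, mul_one]⟩

/-- from a relation `x y = y u x` -/
theorem Com.of_rel {x y : G} (hx : x ∈ D.Tg) (e : V5) (h : x * y = y * D.uu e * x) : Com D x y e.2.2 := by
  obtain ⟨a, b, c, d, ha⟩ := act_of_mem_Tg hx
  refine ⟨T a b c d e, rfl, ?_⟩
  rw [h, ← ha e]
  group

theorem com_v1_v2 : Com D D.v1 D.v2 0 := ⟨0, rfl, by rw [uu_zero, mul_one, D.j_v1_v2]⟩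

theorem com_v1_r1 : Com D D.v1 D.r1 (2, 1, 0) := by
  refine Com.of_rel D.v1_Tg (2, 0, 2, 1, 0) ?_
  rw [D.j_v1_r1]
  simp only [uu, ZMod.val_one, ZMod.val_zero, val_two, pow_one, pow_zero, mul_one, one_mul, mul_assoc]

theorem com_v1_r2 : Com D D.v1 D.r2 (2, 0, 2) := by
  refine Com.of_rel D.v1_Tg (2, 2, 2, 0, 2) ?_
  rw [D.j_v1_r2]
  simp only [uu, ZMod.val_one, ZMod.val_zero, val_two, pow_one, pow_zero, mul_one, one_mul, mul_assoc]

theorem com_v2_r1 : Com D D.v2 D.r1 (0, 1, 2) := by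
  refine Com.of_rel (D.N_le_Tg D.v2_N) (1, 2, 0, 1, 2) ?_
  rw [D.j_v2_r1]
  simp only [uu, ZMod.val_one, ZMod.val_zero, val_two, pow_one, pow_zero, mul_one, one_mul, mul_assoc]

theorem com_v2_r2 : Com D D.v2 D.r2 (2, 2, 2) := by
  refine Com.of_rel (D.N_le_Tg D.v2_N) (1, 0, 2, 2, 2) ?_
  rw [D.j_v2_r2]
  simp only [uu, ZMod.val_one, ZMod.val_zero, val_two, pow_one, pow_zero, mul_one, one_mul, mul_assoc]

theorem com_r1_r2 : Com D D.r1 D.r2 (1, 2, 1) := by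
  refine Com.of_rel D.r1_Tg (0, 0, 1, 2, 1) ?_
  rw [D.j_r1_r2]
  simp only [uu, ZMod.val_one, ZMod.val_zero, val_two, pow_one, pow_zero, mul_one, one_mul, mul_assoc]

/-- the commutator with `y` of an element with image `q` -/
def bet (m1 m2 m3 m4 : F3) (q : Q4) : F3 :=
  q.1.val • m1 + q.2.1.val • m2 + q.2.2.1.val • m3 + q.2.2.2.val • m4

theorem com_w4 {y : G} {m1 m2 m3 m4 : F3} (hy : y ∈ D.Tg) (h1 : Com D D.v1 y m1) (h2 : Com D D.v2 y m2)
    (h3 : Com D D.r1 y m3) (h4 : Com D D.r2 y m4) (e : V5) (a b c d : ZMod 3) :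
    Com D (D.uu e * D.w4 a b c d) y (bet m1 m2 m3 m4 (a, b, c, d)) := by
  have hv2 : D.v2 ∈ D.Tg := D.N_le_Tg D.v2_N
  have k : Com D (D.w4 a b c d) y (bet m1 m2 m3 m4 (a, b, c, d)) := by
    unfold w4 bet
    exact (((h1.pow D.v1_Tg _).mul (h2.pow hv2 _) (D.Tg.pow_mem hv2 _)).mul (h3.pow D.r1_Tg _)
      (D.Tg.pow_mem D.r1_Tg _)).mul (h4.pow D.r2_Tg _) (D.Tg.pow_mem D.r2_Tg _)
  have hw : D.w4 a b c d ∈ D.Tg := by
    have : D.uu 0 * D.w4 a b c d ∈ D.Tg := (D.mem_Tg).2 ⟨0, a, b, c, d, rfl⟩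
    rwa [uu_zero, one_mul] at this
  have := (Com.of_uu e hy).mul k hw
  rwa [zero_add] at this

/-- the consequence of `x` commuting with `x ^ y` -/
theorem L_of_comm (h1 : D.u1 ≠ 1) {x y : G} (hx : x ∈ D.Tg) {m : F3} (hm : Com D x y m)
    (hc : x * (y⁻¹ * x * y) = (y⁻¹ * x * y) * x) : L (D.qT x) m = 0 := by
  obtain ⟨e, rfl, hh⟩ := hm
  rw [← fix_iff h1 hx e]
  have h2 : y⁻¹ * x * y = x * D.uu e := by
    rw [mul_assoc, hh]
    group
  rw [h2] at hc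
  have h3 : x * (x * D.uu e) = x * (D.uu e * x) := by rw [hc]; group
  exact mul_left_cancel h3

theorem dec_q : ∀ q : Q4, L q (bet 0 (-0) (-(2, 1, 0)) (-(2, 0, 2)) q) = 0 →
    L q (bet 0 0 (-(0, 1, 2)) (-(2, 2, 2)) q) = 0 →
    L q (bet (2, 1, 0) (0, 1, 2) 0 (-(1, 2, 1)) q) = 0 →
    L q (bet (2, 0, 2) (2, 2, 2) (1, 2, 1) 0 q) = 0 → q = 0 := by
  decide +kernel

theorem mem_U_of_Tg (h1 : D.u1 ≠ 1) {x : G} (hx : x ∈ D.Tg)
    (hc : ∀ s ∈ D.Tg, x * (s⁻¹ * x * s) = (s⁻¹ * x * s) * x) : x ∈ D.U := by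
  have hv2 : D.v2 ∈ D.Tg := D.N_le_Tg D.v2_N
  rw [mem_U_iff_qT h1 hx]
  obtain ⟨e, a, b, c, d, rfl⟩ := (D.mem_Tg).1 hx
  have hq := qT_w4 h1 e a b c d
  have k1 := L_of_comm h1 hx (com_w4 D.v1_Tg (Com.self _) com_v1_v2.symm com_v1_r1.symm com_v1_r2.symm e a b c d)
    (hc _ D.v1_Tg)
  have k2 := L_of_comm h1 hx (com_w4 hv2 com_v1_v2 (Com.self _) com_v2_r1.symm com_v2_r2.symm e a b c d)
    (hc _ hv2)
  have k3 := L_of_comm h1 hx (com_w4 D.r1_Tg com_v1_r1 com_v2_r1 (Com.self _) com_r1_r2.symm e a b c d)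
    (hc _ D.r1_Tg)
  have k4 := L_of_comm h1 hx (com_w4 D.r2_Tg com_v1_r2 com_v2_r2 com_r1_r2 (Com.self _) e a b c d)
    (hc _ D.r2_Tg)
  rw [hq] at k1 k2 k3 k4 ⊢
  exact dec_q _ k1 k2 k3 k4

theorem dec_X : ∀ f : ZMod 3, f ≠ 0 → ∀ q : Q4,
    (Aq q.1 q.2.1 q.2.2.1 q.2.2.2 f ((0, 0, 0, 0, 1) - Aq q.1 q.2.1 q.2.2.1 q.2.2.2 f (0, 0, 0, 0, 1))) ≠
      (0, 0, 0, 0, 1) - Aq q.1 q.2.1 q.2.2.1 q.2.2.2 f (0, 0, 0, 0, 1) := by
  decide +kernel

/-- **An element of `S` commuting with its conjugates lies in `U`.** -/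
theorem mem_U_of_comm (h1 : D.u1 ≠ 1) {x : G} (hx : x ∈ D.Sg)
    (hc : ∀ s ∈ D.Sg, x * (s⁻¹ * x * s) = (s⁻¹ * x * s) * x) : x ∈ D.U := by
  refine mem_U_of_Tg h1 ?_ (fun s hs => hc s (D.Tg_le_Sg hs))
  obtain ⟨e, a, b, c, d, f, rfl⟩ := (D.mem_Sg).1 hx
  set x := D.uu e * D.w4 a b c d * D.x0 ^ (f : ZMod 3).val with hxdef
  by_cases hf : f = 0
  · rw [hxdef, hf, ZMod.val_zero, pow_zero, mul_one]
    exact (D.mem_Tg).2 ⟨e, a, b, c, d, rfl⟩
  exfalso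
  have hA : D.Act x (Aq a b c d f) := act_w5 e a b c d f
  refine dec_X f hf (a, b, c, d) ?_
  set v : V5 := (0, 0, 0, 0, 1) with hv
  have h2 := hc (D.uu v) (D.U_le_Sg (D.uu_mem v))
  have h3 : (D.uu v)⁻¹ * x * D.uu v = x * D.uu (v - Aq a b c d f v) := by
    have h4 := hA (-v)
    have h5 : Aq a b c d f (-v) = - Aq a b c d f v := by
      have h6 := Aq_add a b c d f v (-v)
      rw [add_neg_cancel] at h6
      have h7 : Aq a b c d f 0 = 0 := by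
        have h8 := Aq_add a b c d f 0 0
        rw [add_zero] at h8
        exact (left_eq_add.1 h8)
      rw [h7] at h6
      exact (neg_eq_of_add_eq_zero_right h6.symm).symm
    rw [h5, uu_neg] at h4
    calc (D.uu v)⁻¹ * x * D.uu v = x * (x⁻¹ * (D.uu v)⁻¹ * x) * D.uu v := by group
      _ = x * (D.uu (-Aq a b c d f v) * D.uu v) := by rw [h4, mul_assoc]
      _ = x * D.uu (v - Aq a b c d f v) := by rw [← uu_add, sub_eq_add_neg, add_comm]
  rw [h3] at h2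
  have h4 : x * D.uu (v - Aq a b c d f v) = D.uu (v - Aq a b c d f v) * x :=
    mul_left_cancel (a := x) (by rw [h2]; group)
  apply uu_injective h1
  rw [← hA, mul_assoc, ← h4, inv_mul_cancel_left]

end Cfsg.Agent.H593.CCTh
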